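import Mathlib.GroupTheory.Sylow
import Mathlib.GroupTheory.PGroup
import Mathlib.GroupTheory.Index
import Mathlib.GroupTheory.IndexNormal

/-!
# The perfect prime lemma (paper proof: helper429; helper969, S3677)

`CO G` : the set of the orders of the centralizers of the elements of `G`.

`perfect` : `r ≠ p` primes, `G` finite with trivial centre. Suppose that every centralizer order `c ≠ |G|` divisible by `r`
is divisible by the full `r`-part of `|G|`, that one of them is prime to `p`, and that for every such `c` divisible by `p`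
the `p`-part of `c` is not the `p`-part of `|G|` and either it is maximal among all of them or there is no proper divisor
of `c` among them with the same `p`-part. Then no element of order `r` commutes with an element of order `p`.
-/

set_option autoImplicit false

namespace Cfsg.Agent.H969.CS

universe u v

/-- the centralizer of an element -/
abbrev Cz {G : Type u} [Group G] (g : G) : Subgroup G := Subgroup.centralizer {g}

/-- the set of the orders of the centralizers -/
def CO (G : Type u) [Group G] : Set ℕ := Set.range fun g : G => Nat.card ↥(Cz g)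

section basic

variable {G : Type u} [Group G]

theorem mem_CO (g : G) : Nat.card ↥(Cz g) ∈ CO G := ⟨g, rfl⟩

theorem mem_Cz {g x : G} : x ∈ Cz g ↔ x * g = g * x := Subgroup.mem_centralizer_singleton_iff

theorem CO_sub {A : Type u} {B : Type v} [Group A] [Group B] [Finite A] [Finite B] (h1 : Nat.card A = Nat.card B)
    (h2 : Set.range (fun g : A => (Subgroup.centralizer ({g} : Set A)).index) ⊆
      Set.range (fun g : B => (Subgroup.centralizer ({g} : Set B)).index)) : CO A ⊆ CO B := by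
  rintro _ ⟨g, rfl⟩
  obtain ⟨g', hg'⟩ := h2 ⟨g, rfl⟩
  refine ⟨g', ?_⟩
  have e1 := (Cz g).card_mul_index
  have e2 := (Cz g').card_mul_index
  have hg'' : (Cz g').index = (Cz g).index := hg'
  rw [hg'', ← h1, ← e1] at e2
  exact Nat.eq_of_mul_eq_mul_right (Nat.pos_of_ne_zero (Cz g).index_ne_zero_of_finite) e2

/-- groups with the same order and the same set of class sizes have the same set of centralizer orders -/
theorem CO_eq {A : Type u} {B : Type v} [Group A] [Group B] [Finite A] [Finite B] (h1 : Nat.card A = Nat.card B)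
    (h2 : Set.range (fun g : A => (Subgroup.centralizer ({g} : Set A)).index) =
      Set.range (fun g : B => (Subgroup.centralizer ({g} : Set B)).index)) : CO A = CO B :=
  Set.Subset.antisymm (CO_sub h1 h2.subset) (CO_sub h1.symm h2.symm.subset)

/-- the centralizer of a conjugate -/
theorem conj_mem_Cz {g x a : G} (h : a ∈ Cz x) : g * a * g⁻¹ ∈ Cz (g * x * g⁻¹) := by
  rw [mem_Cz] at h ⊢
  calc g * a * g⁻¹ * (g * x * g⁻¹) = g * (a * x) * g⁻¹ := by group
    _ = g * (x * a) * g⁻¹ := by rw [h]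
    _ = _ := by group

theorem card_Cz_conj (g x : G) : Nat.card ↥(Cz (g * x * g⁻¹)) = Nat.card ↥(Cz x) := by
  refine Nat.card_congr ⟨fun a => ⟨g⁻¹ * a * g, ?_⟩, fun a => ⟨g * a * g⁻¹, conj_mem_Cz a.2⟩, fun a => ?_, fun a => ?_⟩
  · have h := conj_mem_Cz (g := g⁻¹) a.2
    rw [inv_inv] at h
    have e : g⁻¹ * (g * x * g⁻¹) * g = x := by group
    rwa [e] at h
  · apply Subtype.ext
    show g * (g⁻¹ * a * g) * g⁻¹ = a
    group
  · apply Subtype.ext
    show g⁻¹ * (g * a * g⁻¹) * g = a
    group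

/-- a non-trivial `p`-subgroup of index `p` in a `p`-group meets the centre -/
theorem exists_central {p n : ℕ} [hp : Fact p.Prime] [Finite G] {H K : Subgroup G} (hH : Nat.card H = p ^ (n + 1))
    (hK : Nat.card K = p ^ (n + 1 + 1)) (hHK : H ≤ K) : ∃ v ∈ H, v ≠ 1 ∧ ∀ k ∈ K, k * v = v * k := by
  have hKp : IsPGroup p K := IsPGroup.of_card hK
  have hindex : H.relIndex K = p := by
    have h1 := Subgroup.card_mul_index (H.subgroupOf K)
    have h2 : Nat.card (H.subgroupOf K) = Nat.card H := Nat.card_congr (Subgroup.subgroupOfEquivOfLe hHK).toEquiv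
    rw [h2, hH, hK, pow_succ p (n + 1)] at h1
    exact Nat.eq_of_mul_eq_mul_left (Nat.pow_pos hp.out.pos) h1
  have hnorm : (H.subgroupOf K).Normal := by
    apply Subgroup.normal_of_index_eq_minFac_card
    show H.relIndex K = _
    rw [hindex, hK, hp.out.pow_minFac (by omega)]
  have hconj : ∀ k ∈ K, ∀ h ∈ H, k * h * k⁻¹ ∈ H := by
    intro k hk h hh
    have h1 := hnorm.conj_mem ⟨h, hHK hh⟩ hh ⟨k, hk⟩
    exact h1
  let act : MulAction K H :=
    { smul := fun k h => ⟨k * h * (k : G)⁻¹, hconj k k.2 h h.2⟩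
      one_smul := by
        intro h
        apply Subtype.ext
        show (1 : G) * h * (1 : G)⁻¹ = h
        group
      mul_smul := by
        intro a b h
        apply Subtype.ext
        show (a * b : G) * h * (a * b : G)⁻¹ = a * (b * h * (b : G)⁻¹) * (a : G)⁻¹
        group }
  have h1 := hKp.card_modEq_card_fixedPoints (α := H)
  have h2 : p ∣ Nat.card (MulAction.fixedPoints K H) := by
    have h3 : p ∣ Nat.card H := by rw [hH]; exact dvd_pow_self p (by omega)
    exact (Nat.modEq_zero_iff_dvd.1 (h1.symm.trans (Nat.modEq_zero_iff_dvd.2 h3)))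
  have h1mem : (1 : H) ∈ MulAction.fixedPoints K H := by
    intro k
    apply Subtype.ext
    show (k : G) * 1 * (k : G)⁻¹ = 1
    group
  have hfin : Finite ↥(MulAction.fixedPoints K H) := inferInstance
  have h3 : 1 < Nat.card (MulAction.fixedPoints K H) := by
    have hpos : 0 < Nat.card (MulAction.fixedPoints K H) := by
      have : Nonempty ↥(MulAction.fixedPoints K H) := ⟨⟨1, h1mem⟩⟩
      exact Nat.card_pos
    exact lt_of_lt_of_le hp.out.one_lt (Nat.le_of_dvd hpos h2)
  have hnt : Nontrivial ↥(MulAction.fixedPoints K H) := Finite.one_lt_card_iff_nontrivial.1 h3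
  obtain ⟨v, hv⟩ := exists_ne (⟨1, h1mem⟩ : ↥(MulAction.fixedPoints K H))
  refine ⟨(v.1 : G), v.1.2, ?_, ?_⟩
  · intro h4
    apply hv
    exact Subtype.ext (Subtype.ext h4)
  · intro k hk
    have h4 : (k : G) * v.1 * (k : G)⁻¹ = v.1 := congrArg Subtype.val (v.2 ⟨k, hk⟩)
    calc k * (v.1 : G) = (k * v.1 * k⁻¹) * k := by group
      _ = v.1 * k := by rw [h4]

/-- a non-trivial `p`-group has a non-trivial central element -/
theorem exists_central' {p : ℕ} [hp : Fact p.Prime] [Finite G] {P : Subgroup G} (hP : IsPGroup p P) (h1 : P ≠ ⊥) :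
    ∃ v ∈ P, v ≠ 1 ∧ ∀ k ∈ P, k * v = v * k := by
  have hnt : Nontrivial P := (Subgroup.nontrivial_iff_ne_bot P).2 h1
  have h2 := hP.bot_lt_center
  obtain ⟨v, hv, hv1⟩ := (Subgroup.ne_bot_iff_exists_ne_one).1 h2.ne' |>.imp fun v h => (⟨v.2, h⟩ : _ ∧ _)
  refine ⟨(v : P), (v : P).2, ?_, ?_⟩
  · intro h3
    apply hv1
    exact Subtype.ext (Subtype.ext h3)
  · intro k hk
    exact congrArg Subtype.val (Subgroup.mem_center_iff.1 v.2 ⟨k, hk⟩)

/-- commuting elements of coprime orders are powers of their product -/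
theorem cz_mul {y v : G} (h : y * v = v * y) (hco : Nat.Coprime (orderOf y) (orderOf v)) {x : G}
    (hx : x ∈ Cz (y * v)) : x ∈ Cz y ∧ x ∈ Cz v := by
  have hcom : Commute y v := h
  have h1 : ∀ n : ℕ, x * (y * v) ^ n = (y * v) ^ n * x := fun n => ((show Commute x (y * v) from mem_Cz.1 hx).pow_right n)
  constructor
  · obtain ⟨k, hk1, hk2⟩ := Nat.chineseRemainder hco 1 0
    have h2 : (y * v) ^ k = y := by
      rw [hcom.mul_pow, pow_eq_pow_iff_modEq.2 hk1, pow_one, (orderOf_dvd_iff_pow_eq_one.1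
        (Nat.modEq_zero_iff_dvd.1 hk2)), mul_one]
    rw [mem_Cz, ← h2]
    exact h1 k
  · obtain ⟨k, hk1, hk2⟩ := Nat.chineseRemainder hco 0 1
    have h2 : (y * v) ^ k = v := by
      rw [hcom.mul_pow, pow_eq_pow_iff_modEq.2 hk2, pow_one, (orderOf_dvd_iff_pow_eq_one.1
        (Nat.modEq_zero_iff_dvd.1 hk1)), one_mul]
    rw [mem_Cz, ← h2]
    exact h1 k

end basic

variable {G : Type u} [Group G]

/-- **The perfect prime lemma.** -/
theorem perfect [Finite G] {r p : ℕ} [hr : Fact r.Prime] [hp : Fact p.Prime] (hrp : r ≠ p)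
    (hz : ∀ z : G, (∀ g, g * z = z * g) → z = 1)
    (ha : ∀ c ∈ CO G, c ≠ Nat.card G → r ∣ c → c.factorization r = (Nat.card G).factorization r)
    (hb : ∃ c ∈ CO G, r ∣ c ∧ ¬ p ∣ c)
    (hc : ∀ c ∈ CO G, c ≠ Nat.card G → r ∣ c → p ∣ c → c.factorization p < (Nat.card G).factorization p ∧
      ((∀ c1 ∈ CO G, c1 ≠ Nat.card G → r ∣ c1 → c1.factorization p ≤ c.factorization p) ∨
        ∀ c1 ∈ CO G, c1 ∣ c → r ∣ c1 → c1.factorization p = c.factorization p → c1 = c))
    {y v : G} (hy : orderOf y = r) (hv : orderOf v = p) : y * v ≠ v * y := by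
  intro hcomm
  have hne : ∀ z : G, z ≠ 1 → Nat.card ↥(Cz z) ≠ Nat.card G := by
    intro z hz1 h1
    apply hz1
    apply hz
    intro g
    have h2 : Cz z = ⊤ := Subgroup.eq_top_of_card_eq _ h1
    have h3 : g ∈ Cz z := by rw [h2]; exact Subgroup.mem_top g
    exact mem_Cz.1 h3
  have hy1 : y ≠ 1 := by
    rintro rfl
    rw [orderOf_one] at hy
    exact hr.out.ne_one hy.symm
  set E := Cz y with hE
  set c := Nat.card ↥E with hcdef
  have hcCO : c ∈ CO G := mem_CO y
  have hcG : c ≠ Nat.card G := hne y hy1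
  have hyE : y ∈ E := mem_Cz.2 rfl
  have hvE : v ∈ E := mem_Cz.2 hcomm.symm
  have hdvdE : ∀ {x : G} (H : Subgroup G), x ∈ H → orderOf x ∣ Nat.card ↥H := by
    intro x H hx
    have h1 : orderOf (⟨x, hx⟩ : H) = orderOf x := Subgroup.orderOf_mk x hx
    rw [← h1]
    exact orderOf_dvd_natCard _
  have hrc : r ∣ c := by rw [← hy]; exact hdvdE E hyE
  have hpc : p ∣ c := by rw [← hv]; exact hdvdE E hvE
  have hc0 : c ≠ 0 := Nat.card_pos.ne'
  have hG0 : Nat.card G ≠ 0 := Nat.card_pos.ne'
  obtain ⟨hlt, hcase⟩ := hc c hcCO hcG hrc hpc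
  -- a Sylow `p`-subgroup of `E`
  obtain ⟨P⟩ : Nonempty (Sylow p ↥E) := inferInstance
  set Pm : Subgroup G := (P : Subgroup ↥E).map E.subtype with hPm
  have hPmE : Pm ≤ E := by
    rintro _ ⟨x, _, rfl⟩
    exact x.2
  have hPmcard : Nat.card ↥Pm = p ^ c.factorization p := by
    rw [← P.card_eq_multiplicity]
    exact Nat.card_congr ((P : Subgroup ↥E).equivMapOfInjective _ E.subtype_injective).symm.toEquiv
  have hPmp : IsPGroup p ↥Pm := IsPGroup.of_card hPmcard
  have hf : 1 ≤ c.factorization p := (hp.out.dvd_iff_one_le_factorization hc0).1 hpc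
  have hPm1 : Pm ≠ ⊥ := by
    intro h1
    rw [h1, Subgroup.card_bot] at hPmcard
    have h2 : p ^ 1 ∣ p ^ c.factorization p := pow_dvd_pow p hf
    rw [← hPmcard, pow_one] at h2
    exact hp.out.one_lt.ne' (Nat.dvd_one.1 h2)
  rcases hcase with hmax | hmin
  · -- the `p`-part is maximal
    obtain ⟨k, hk⟩ : ∃ k, c.factorization p = k + 1 := ⟨c.factorization p - 1, by omega⟩
    have h1 : p ^ (k + 1 + 1) ∣ Nat.card G := (hp.out.pow_dvd_iff_le_factorization hG0).2 (by omega)
    rw [hk] at hPmcard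
    obtain ⟨K, hK, hle⟩ := Sylow.exists_subgroup_card_pow_succ h1 hPmcard
    obtain ⟨w, hw, hw1, hwK⟩ := exists_central hPmcard hK hle
    have h2 : r ∣ Nat.card ↥(Cz w) := by
      rw [← hy]
      refine hdvdE (Cz w) (mem_Cz.2 ?_)
      exact (mem_Cz.1 (hPmE hw)).symm
    have h3 := hmax _ (mem_CO w) (hne w hw1) h2
    have h4 : K ≤ Cz w := fun k hk => mem_Cz.2 (hwK k hk)
    have h5 : p ^ (k + 1 + 1) ∣ Nat.card ↥(Cz w) := by
      rw [← hK]
      exact Subgroup.card_dvd_of_le h4
    have h6 := (hp.out.pow_dvd_iff_le_factorization Nat.card_pos.ne').1 h5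
    omega
  · -- no proper divisor with the same `p`-part
    obtain ⟨w, hw, hw1, hwP⟩ := exists_central' hPmp hPm1
    have hyw : y * w = w * y := (mem_Cz.1 (hPmE hw)).symm
    obtain ⟨j, hj⟩ := hPmp ⟨w, hw⟩
    have hj' : w ^ p ^ j = 1 := congrArg Subtype.val hj
    obtain ⟨i, _, hi⟩ := (Nat.dvd_prime_pow hp.out).1 (orderOf_dvd_of_pow_eq_one hj')
    have hco : Nat.Coprime (orderOf y) (orderOf w) := by
      rw [hy, hi]
      exact Nat.Coprime.pow_right i ((Nat.coprime_primes hr.out hp.out).2 hrp)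
    have hsub : Cz (y * w) ≤ E := fun x hx => (cz_mul hyw hco hx).1
    have hsubw : Cz (y * w) ≤ Cz w := fun x hx => (cz_mul hyw hco hx).2
    have h1 : Nat.card ↥(Cz (y * w)) ∣ c := Subgroup.card_dvd_of_le hsub
    have hymem : y ∈ Cz (y * w) := by
      rw [mem_Cz, mul_assoc, ← hyw]
    have h2 : r ∣ Nat.card ↥(Cz (y * w)) := by
      rw [← hy]
      exact hdvdE _ hymem
    have hPle : Pm ≤ Cz (y * w) := by
      intro x hx
      rw [mem_Cz]
      have e1 := mem_Cz.1 (hPmE hx)
      have e2 := hwP x hx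
      calc x * (y * w) = (x * y) * w := by group
        _ = y * (x * w) := by rw [e1]; group
        _ = y * w * x := by rw [e2]; group
    have h3 : (Nat.card ↥(Cz (y * w))).factorization p = c.factorization p := by
      apply le_antisymm
      · exact (Nat.factorization_le_iff_dvd Nat.card_pos.ne' hc0).2 h1 p
      · rw [← hp.out.pow_dvd_iff_le_factorization Nat.card_pos.ne', ← hPmcard]
        exact Subgroup.card_dvd_of_le hPle
    have h4 := hmin _ (mem_CO (y * w)) h1 h2 h3
    have h5 : Cz (y * w) = E := Subgroup.eq_of_le_of_card_ge hsub h4.ge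
    -- the other centralizer
    obtain ⟨_, ⟨x0, rfl⟩, hr0, hp0⟩ := hb
    have hpG : p ∣ Nat.card G := hpc.trans (Subgroup.card_subgroup_dvd_card E)
    have h0G : Nat.card ↥(Cz x0) ≠ Nat.card G := by
      intro h6
      apply hp0
      show p ∣ Nat.card ↥(Cz x0)
      rw [h6]
      exact hpG
    have hfull0 := ha _ (mem_CO x0) h0G hr0
    have hfullc := ha c hcCO hcG hrc
    -- Sylow `r`-subgroups
    have hyp : IsPGroup r (Subgroup.zpowers (⟨y, hyE⟩ : ↥E)) := by
      apply IsPGroup.of_card (n := 1)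
      rw [Nat.card_zpowers, Subgroup.orderOf_mk, hy, pow_one]
    obtain ⟨R, hR⟩ := hyp.exists_le_sylow
    obtain ⟨R2⟩ : Nonempty (Sylow r ↥(Cz x0)) := inferInstance
    have hRc : Nat.card ↥((R : Subgroup ↥E).map E.subtype) = r ^ (Nat.card G).factorization r := by
      rw [← hfullc, ← R.card_eq_multiplicity]
      exact Nat.card_congr ((R : Subgroup ↥E).equivMapOfInjective _ E.subtype_injective).symm.toEquiv
    have hR2c : Nat.card ↥((R2 : Subgroup ↥(Cz x0)).map (Cz x0).subtype) = r ^ (Nat.card G).factorization r := by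
      rw [← hfull0, ← R2.card_eq_multiplicity]
      exact Nat.card_congr ((R2 : Subgroup ↥(Cz x0)).equivMapOfInjective _ (Cz x0).subtype_injective).symm.toEquiv
    let RG : Sylow r G := Sylow.ofCard _ hRc
    let R2G : Sylow r G := Sylow.ofCard _ hR2c
    obtain ⟨g, hg⟩ := MulAction.exists_smul_eq G R2G RG
    have hyR : y ∈ (RG : Subgroup G) := ⟨⟨y, hyE⟩, hR (Subgroup.mem_zpowers _), rfl⟩
    rw [← hg] at hyR
    obtain ⟨y2, hy2, hy2y⟩ := hyR
    obtain ⟨y3, _, rfl⟩ := (show y2 ∈ (R2 : Subgroup ↥(Cz x0)).map (Cz x0).subtype from hy2)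
    have e1 : g * (y3 : G) * g⁻¹ = y := hy2y
    have h6 : y ∈ Cz (g * x0 * g⁻¹) := by
      rw [← e1]
      exact conj_mem_Cz y3.2
    have h7 : g * x0 * g⁻¹ ∈ E := mem_Cz.2 (mem_Cz.1 h6).symm
    rw [← h5] at h7
    have h8 := hsubw h7
    have h9 : w ∈ Cz (g * x0 * g⁻¹) := mem_Cz.2 (mem_Cz.1 h8).symm
    have h10 : orderOf w ∣ Nat.card ↥(Cz x0) := by
      rw [← card_Cz_conj g x0]
      exact hdvdE _ h9
    apply hp0
    refine dvd_trans ?_ h10
    rw [hi]
    refine dvd_pow_self p ?_
    rintro rfl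
    rw [pow_zero, orderOf_eq_one_iff] at hi
    exact hw1 hi

end Cfsg.Agent.H969.CS
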